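import Mathlib

/-! Composition length of a finite group through subnormal chains: the predicate `Ch B l` (a strict subnormal chain
`⊥ < … < B` of length `l`), the function `cl B` (longest chain), additivity along homomorphisms (`cl_eq`, `c_eq`),
the bound by the number of prime factors (`c_le_omega`), simple groups, and automorphism-group order bounds. -/

set_option autoImplicit false

namespace Cfsg.Agent.CL

open Subgroup ArithmeticFunction
open scoped ArithmeticFunction.Omega

universe u v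

variable {G : Type u} [Group G] {Q : Type v} [Group Q]

/-- strict subnormal chains from `⊥` -/
inductive Ch : Subgroup G → ℕ → Prop
  | bot : Ch ⊥ 0
  | step {A B : Subgroup G} {l : ℕ} : Ch A l → A < B → (∀ b ∈ B, ∀ a ∈ A, b * a * b⁻¹ ∈ A) → Ch B (l + 1)

theorem Ch.step_le {A B : Subgroup G} {l : ℕ} (h : Ch A l) (hAB : A ≤ B) (hn : ∀ b ∈ B, ∀ a ∈ A, b * a * b⁻¹ ∈ A) :
    ∃ l', l ≤ l' ∧ Ch B l' ∧ (A ≠ B → l + 1 ≤ l') := by
  rcases hAB.eq_or_lt with rfl | hlt
  · exact ⟨l, le_rfl, h, fun h => absurd rfl h⟩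
  · exact ⟨l + 1, by omega, h.step hlt hn, fun _ => le_rfl⟩

theorem omega_lt {a b : ℕ} (hb : b ≠ 0) (h : a ∣ b) (hne : a ≠ b) : Ω a + 1 ≤ Ω b := by
  obtain ⟨k, rfl⟩ := h
  have ha : a ≠ 0 := left_ne_zero_of_mul hb
  have hk : k ≠ 0 := right_ne_zero_of_mul hb
  rw [cardFactors_mul ha hk]
  have : 0 < Ω k := cardFactors_pos_iff_one_lt.2 (by
    rcases Nat.lt_or_ge 1 k with h | h
    · exact h
    · exact absurd (by rw [show k = 1 by omega, mul_one]) hne)
  omega

theorem omega_le {a b : ℕ} (hb : b ≠ 0) (h : a ∣ b) : Ω a ≤ Ω b := by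
  by_cases hne : a = b
  · rw [hne]
  · exact le_trans (Nat.le_succ _) (omega_lt hb h hne)

theorem two_pow_omega {n : ℕ} (hn : n ≠ 0) : 2 ^ Ω n ≤ n := by
  induction n using Nat.recOnMul with
  | zero => exact absurd rfl hn
  | one => simp
  | prime p hp => rw [cardFactors_apply_prime hp, pow_one]; exact hp.two_le
  | mul a b ha hb =>
    have h1 := left_ne_zero_of_mul hn
    have h2 := right_ne_zero_of_mul hn
    rw [cardFactors_mul h1 h2, pow_add]
    exact Nat.mul_le_mul (ha h1) (hb h2)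

theorem Ch.le_omega [Finite G] {B : Subgroup G} {l : ℕ} (h : Ch B l) : l ≤ Ω (Nat.card B) := by
  induction h with
  | bot => exact Nat.zero_le _
  | step _ hlt _ ih =>
    refine le_trans (Nat.succ_le_succ ih) (omega_lt Nat.card_pos.ne' (card_dvd_of_le hlt.le) fun h => hlt.ne ?_)
    exact eq_of_le_of_card_ge hlt.le h.ge

theorem exists_ch (B : Subgroup G) : ∃ l, Ch B l := by
  obtain ⟨l, -, h, -⟩ := (Ch.bot (G := G)).step_le (B := B) bot_le (fun b _ a ha => by
    rw [mem_bot.1 ha]; simp)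
  exact ⟨l, h⟩

theorem Ch.split (f : G →* Q) {B : Subgroup G} {l : ℕ} (h : Ch B l) :
    ∃ l₁ l₂, l ≤ l₁ + l₂ ∧ Ch (B ⊓ f.ker) l₁ ∧ Ch (B.map f) l₂ := by
  induction h with
  | bot => exact ⟨0, 0, le_rfl, by rw [bot_inf_eq]; exact Ch.bot, by rw [Subgroup.map_bot]; exact Ch.bot⟩
  | @step A B l _ hlt hn ih =>
    obtain ⟨l₁, l₂, hl, h1, h2⟩ := ih
    obtain ⟨m₁, a1, b1, c1⟩ := h1.step_le (B := B ⊓ f.ker) (inf_le_inf_right _ hlt.le) (fun b hb a ha =>
      mem_inf.2 ⟨hn b (mem_inf.1 hb).1 a (mem_inf.1 ha).1, f.normal_ker.conj_mem _ (mem_inf.1 ha).2 _⟩)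
    obtain ⟨m₂, a2, b2, c2⟩ := h2.step_le (B := B.map f) (Subgroup.map_mono hlt.le) (by
      rintro _ ⟨b, hb, rfl⟩ _ ⟨a, ha, rfl⟩
      exact ⟨b * a * b⁻¹, hn b hb a ha, by simp⟩)
    refine ⟨m₁, m₂, ?_, b1, b2⟩
    by_cases e1 : A ⊓ f.ker = B ⊓ f.ker
    · by_cases e2 : A.map f = B.map f
      · refine absurd (fun b hb => ?_) (not_le_of_gt hlt)
        obtain ⟨a, ha, hab⟩ : f b ∈ A.map f := e2 ▸ ⟨b, hb, rfl⟩
        have : a⁻¹ * b ∈ A ⊓ f.ker := e1 ▸ mem_inf.2 ⟨B.mul_mem (B.inv_mem (hlt.le ha)) hb, by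
          rw [MonoidHom.mem_ker, map_mul, map_inv, hab, inv_mul_cancel]⟩
        simpa using A.mul_mem ha (mem_inf.1 this).1
      · have := c2 e2; omega
    · have := c1 e1; omega

theorem Ch.join (f : G →* Q) {B : Subgroup G} {l₁ l₂ : ℕ} (h1 : Ch (B ⊓ f.ker) l₁) {X : Subgroup Q} (h2 : Ch X l₂)
    (hX : X ≤ B.map f) : Ch (B ⊓ X.comap f) (l₁ + l₂) := by
  induction h2 with
  | bot => exact h1
  | @step A X l _ hlt hn ih =>
    refine (ih (hlt.le.trans hX)).step (lt_of_le_of_ne (inf_le_inf_left _ (comap_mono hlt.le)) fun h => ?_) ?_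
    · refine not_le_of_gt hlt fun x hx => ?_
      obtain ⟨b, hb, rfl⟩ := hX hx
      have : b ∈ B ⊓ A.comap f := h ▸ mem_inf.2 ⟨hb, hx⟩
      exact (mem_inf.1 this).2
    · intro b hb a ha
      refine mem_inf.2 ⟨B.mul_mem (B.mul_mem (mem_inf.1 hb).1 (mem_inf.1 ha).1) (B.inv_mem (mem_inf.1 hb).1), ?_⟩
      rw [mem_comap, map_mul, map_mul, map_inv]
      exact hn _ (mem_inf.1 hb).2 _ (mem_inf.1 ha).2

/-- length of the longest subnormal chain of `B` -/
noncomputable def cl (B : Subgroup G) : ℕ := sSup {l | Ch B l}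

section fin
variable [Finite G]

theorem bdd (B : Subgroup G) : BddAbove {l | Ch B l} := ⟨Ω (Nat.card B), fun _ h => Ch.le_omega h⟩

theorem Ch.le_cl {B : Subgroup G} {l : ℕ} (h : Ch B l) : l ≤ cl B := le_csSup (bdd B) h

theorem ch_cl (B : Subgroup G) : Ch B (cl B) := Nat.sSup_mem (s := {l | Ch B l}) (exists_ch B) (bdd B)

theorem cl_bot : cl (⊥ : Subgroup G) = 0 := by
  have := (ch_cl (⊥ : Subgroup G)).le_omega
  simpa using this

theorem cl_eq [Finite Q] (f : G →* Q) (B : Subgroup G) : cl B = cl (B ⊓ f.ker) + cl (B.map f) := by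
  refine le_antisymm ?_ ?_
  · obtain ⟨l₁, l₂, h, h1, h2⟩ := (ch_cl B).split f
    exact h.trans (Nat.add_le_add h1.le_cl h2.le_cl)
  · have := (ch_cl (B ⊓ f.ker)).join f (ch_cl (B.map f)) le_rfl
    rw [inf_eq_left.2 (le_comap_map f B)] at this
    exact this.le_cl

theorem cl_map [Finite Q] {f : G →* Q} (hf : Function.Injective f) (B : Subgroup G) : cl (B.map f) = cl B := by
  rw [cl_eq f B, (MonoidHom.ker_eq_bot_iff f).2 hf, inf_bot_eq, cl_bot, zero_add]

end fin

variable (G) in
/-- composition length of a group -/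
noncomputable def c : ℕ := cl (⊤ : Subgroup G)

variable [Finite G]

theorem c_sub (B : Subgroup G) : c B = cl B := by
  rw [c, ← cl_map B.subtype_injective, ← MonoidHom.range_eq_map, range_subtype]

theorem c_eq [Finite Q] (f : G →* Q) : c G = c f.ker + c f.range := by
  rw [c_sub, c_sub, c, cl_eq f, top_inf_eq, MonoidHom.range_eq_map]

theorem c_congr [Finite Q] (e : G ≃* Q) : c G = c Q := by
  rw [c, c, ← cl_map (f := e.toMonoidHom) e.injective, map_top_of_surjective _ e.surjective]

theorem c_range [Finite Q] {f : G →* Q} (hf : Function.Injective f) : c f.range = c G :=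
  (c_congr (MonoidHom.ofInjective hf)).symm

theorem c_le_omega : c G ≤ Ω (Nat.card G) := by
  have := (ch_cl (⊤ : Subgroup G)).le_omega
  rwa [card_top] at this

theorem c_pos [Nontrivial G] : 1 ≤ c G :=
  ((Ch.bot (G := G)).step bot_lt_top (fun b _ a ha => by rw [mem_bot.1 ha]; simp)).le_cl

theorem c_zero [Subsingleton G] : c G = 0 := by
  have := c_le_omega (G := G)
  rw [Nat.card_of_subsingleton (1 : G)] at this
  simpa using this

theorem c_simple [IsSimpleGroup G] : c G ≤ 1 := by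
  have key : ∀ (B : Subgroup G) (l : ℕ), Ch B l → B = ⊤ → l ≤ 1 := by
    intro B l h hB
    cases h with
    | bot => omega
    | @step A _ l h hlt hn =>
      subst hB
      have : A.Normal := ⟨fun a ha b => hn b trivial a ha⟩
      rcases this.eq_bot_or_eq_top with rfl | rfl
      · have := h.le_cl
        rw [cl_bot] at this
        omega
      · exact absurd hlt (lt_irrefl _)
  exact key _ _ (ch_cl ⊤) rfl

/-- `c G + c (N ⊓ H) = c N + c H` when `N` is normal and `N H = G` -/
theorem c_add (N H : Subgroup G) [N.Normal] (h : ∀ g : G, ∃ n ∈ N, ∃ k ∈ H, g = n * k) :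
    c G + c (N ⊓ H : Subgroup G) = c N + c H := by
  have h1 := cl_eq (QuotientGroup.mk' N) ⊤
  have h2 := cl_eq (QuotientGroup.mk' N) H
  rw [QuotientGroup.ker_mk'] at h1 h2
  have h3 : H.map (QuotientGroup.mk' N) = Subgroup.map (QuotientGroup.mk' N) ⊤ := by
    refine le_antisymm (Subgroup.map_mono le_top) ?_
    rintro _ ⟨g, -, rfl⟩
    obtain ⟨n, hn, k, hk, rfl⟩ := h g
    refine ⟨k, hk, ?_⟩
    rw [map_mul, (QuotientGroup.eq_one_iff n).2 hn |> fun e => show QuotientGroup.mk' N n = 1 from e, one_mul]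
  rw [c_sub, c_sub, c_sub, c, h1, h2, h3, top_inf_eq, inf_comm N H]
  omega

/-- a group with a separating family of homomorphisms with images of order `≤ u` has order `≤ u ^ c` -/
theorem card_le_pow_c {ι : Type*} {T : Type*} [Group T] [Finite T] {u : ℕ} (hu : 1 ≤ u) :
    ∀ (n : ℕ) (D : Type u) [Group D] [Finite D] (f : ι → D →* T), Nat.card D = n → (∀ d, (∀ i, f i d = 1) → d = 1) →
      (∀ i, Nat.card (f i).range ≤ u) → Nat.card D ≤ u ^ c D := by
  intro n
  induction n using Nat.strong_induction_on with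
  | _ n ih =>
  intro D _ _ f hn hf hr
  by_cases hD : ∀ i, (f i).range = ⊥
  · haveI : Subsingleton D := ⟨fun a b => by
      rw [hf a fun i => mem_bot.1 (hD i ▸ ⟨a, rfl⟩), hf b fun i => mem_bot.1 (hD i ▸ ⟨b, rfl⟩)]⟩
    rw [Nat.card_of_subsingleton (1 : D)]
    exact Nat.one_le_pow _ _ hu
  push Not at hD
  obtain ⟨i, hi⟩ := hD
  haveI := (nontrivial_iff_ne_bot _).2 hi
  have h1 : Nat.card D = Nat.card (f i).ker * Nat.card (f i).range := by rw [← index_ker, card_mul_index]
  have h2 : 1 < Nat.card (f i).range := Finite.one_lt_card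
  have h3 := ih (Nat.card (f i).ker) (by
    have := Nat.card_pos (α := (f i).ker); nlinarith) (f i).ker (fun j => (f j).comp (f i).ker.subtype) rfl
    (fun d hd => Subtype.ext (hf d hd)) (fun j => le_trans (card_le_of_le (by
      rintro _ ⟨d, rfl⟩; exact ⟨d, rfl⟩)) (hr j))
  have h4 := c_eq (f i)
  have h5 := c_pos (G := (f i).range)
  calc Nat.card D ≤ u ^ c (f i).ker * u := h1 ▸ Nat.mul_le_mul h3 (hr i)
    _ = u ^ (c (f i).ker + 1) := by ring
    _ ≤ u ^ c D := Nat.pow_le_pow_right hu (by omega)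

theorem c_pi {T : Type*} [Group T] [Finite T] [IsSimpleGroup T] (m : ℕ) : c (Fin m → T) ≤ m := by
  classical
  have key : ∀ s : Finset (Fin m), cl (Subgroup.pi (↑s : Set (Fin m))ᶜ fun _ => (⊥ : Subgroup T)) ≤ s.card := by
    intro s
    induction s using Finset.induction_on with
    | empty =>
      rw [Finset.coe_empty, Set.compl_empty, Subgroup.pi_bot, cl_bot]
      exact Nat.zero_le _
    | insert i s hi ih =>
      rw [cl_eq (Pi.evalMonoidHom (fun _ => T) i), Finset.card_insert_of_notMem hi]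
      refine Nat.add_le_add (le_trans (le_of_eq (congrArg cl ?_)) ih) ?_
      · ext x
        simp only [mem_inf, mem_pi, Set.mem_compl_iff, Finset.mem_coe, Finset.mem_insert, not_or, mem_bot,
          MonoidHom.mem_ker, Pi.evalMonoidHom_apply]
        refine ⟨fun ⟨h1, h2⟩ j hj => ?_, fun h => ⟨fun j hj => h j hj.2, h i hi⟩⟩
        by_cases e : j = i
        · rw [e]; exact h2
        · exact h1 j ⟨e, hj⟩
      · refine le_trans (le_of_eq (congrArg cl (eq_top_iff.2 fun t _ => ?_))) (c_simple (G := T))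
        refine ⟨Pi.mulSingle i t, fun j hj => ?_, by simp⟩
        have : j ≠ i := fun e => hj (by simp [e])
        simp [this]
  have := key Finset.univ
  rw [Finset.coe_univ, Set.compl_univ, Subgroup.pi_empty, Finset.card_univ, Fintype.card_fin] at this
  exact this

/-- a finite group of order `n` has a generating set of size `≤ log₂ n` -/
theorem exists_gen (N : Type*) [Group N] [Finite N] :
    ∃ s : Finset N, closure (s : Set N) = ⊤ ∧ 2 ^ s.card ≤ Nat.card N := by
  classical
  obtain ⟨s, hs, hm⟩ := Set.exists_max_image {s : Finset N | 2 ^ s.card ≤ Nat.card (closure (s : Set N))}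
    (fun s => Nat.card (closure (s : Set N))) (Set.toFinite _) ⟨∅, by simp⟩
  by_cases h : closure (s : Set N) = ⊤
  · refine ⟨s, h, ?_⟩
    have : 2 ^ s.card ≤ Nat.card (closure (s : Set N)) := hs
    rwa [h, card_top] at this
  obtain ⟨x, hx⟩ : ∃ x, x ∉ closure (s : Set N) := by
    by_contra hc
    push Not at hc
    exact h (eq_top_iff.2 fun x _ => hc x)
  have hle : closure (s : Set N) ≤ closure (↑(insert x s) : Set N) := closure_mono (by simp)
  have hne : Nat.card (closure (s : Set N)) ≠ Nat.card (closure (↑(insert x s) : Set N)) := fun e =>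
    hx (eq_of_le_of_card_ge hle e.ge ▸ subset_closure (by simp))
  obtain ⟨k, hk⟩ := card_dvd_of_le hle
  have hp := Nat.card_pos (α := closure (s : Set N))
  have hp' := Nat.card_pos (α := closure (↑(insert x s) : Set N))
  have hk2 : 2 ≤ k := by
    rcases k with _ | _ | k
    · omega
    · exact absurd (by omega) hne
    · omega
  have hs' : 2 ^ s.card ≤ Nat.card (closure (s : Set N)) := hs
  have := hm (insert x s) (by
    show 2 ^ (insert x s).card ≤ _
    rw [Finset.card_insert_of_notMem fun hxs => hx (subset_closure hxs), pow_succ, hk]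
    exact Nat.mul_le_mul hs' hk2)
  nlinarith

theorem card_mulAut (N : Type*) [Group N] [Finite N] : Nat.card (MulAut N) ≤ Nat.card N ^ Nat.log 2 (Nat.card N) := by
  obtain ⟨s, hs, h2⟩ := exists_gen N
  have h1 : Nat.card (MulAut N) ≤ Nat.card (s → N) := Nat.card_le_card_of_injective (fun a x => a x) fun a b h => by
    have := MonoidHom.eq_of_eqOn_dense hs (f := a.toMonoidHom) (g := b.toMonoidHom) fun x hx => congrFun h ⟨x, hx⟩
    ext x
    exact DFunLike.congr_fun this x
  rw [Nat.card_fun, Nat.card_eq_finsetCard] at h1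
  exact h1.trans (Nat.pow_le_pow_right Nat.card_pos (Nat.le_log_of_pow_le (by norm_num) h2))

end Cfsg.Agent.CL
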